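import Mathlib
import Cfsg.Agent.H645.FT.Defs
import Cfsg.Agent.H624.MajTwoB

/-!
# Major subsections of rank one (for S4544)

`four_mul_card_le`: `4 k(B) ≤ 2 ^ d + 3 k₀(B)`.
-/

set_option autoImplicit false

open Cfsg Cfsg.FusionSystem Cfsg.Agent.H645.FT

namespace Cfsg.Agent.H639.FTN2

theorem four_mul_card_le {G : Type*} [Group G] [Finite G] {M : Ideal AlgInt} (hM : IsPModular 2 M)
    {B : Set (IrrCharacter G)} (hB : IsPBlock M B) {D : Subgroup G} (hD : IsDefectGroup 2 M B D)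
    {z : G} (hzD : z ∈ D) (hzc : ∀ d ∈ D, d * z = z * d)
    {H : Subgroup G} (hH : H = Subgroup.centralizer ({z} : Set G))
    {b : Set (IrrCharacter H)} (hb : IsInducedBlock M H b B)
    (hbD : IsDefectGroup 2 M b (D.subgroupOf H)) (hl : blockRank 2 b = 1) :
    4 * Nat.card B ≤ 2 ^ blockDefect 2 B +
      3 * Nat.card {χ : IrrCharacter G // χ ∈ B ∧ blockHeight 2 B (χ : G → ℂ) = 0} := by
  classical
  have := Cfsg.Agent.Characters.Core.finite_irr (G := G)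
  have : Fintype B := Fintype.ofFinite B
  obtain ⟨ζ, k, P, a, hζ, hP⟩ :=
    Cfsg.Agent.H624.MajTwo.exists_proj hM hB hD hzD hzc hH hb hbD
  obtain ⟨χ₀, hχ₀, hχ₀0⟩ := Cfsg.Agent.Blocks.Blau.exists_blockHeight_eq_zero 2
    (Cfsg.Agent.Blocks.Blau.isPBlock_nonempty hM hB)
  have h0 : ∃ ψ : B, blockHeight 2 B ((ψ : IrrCharacter G) : G → ℂ) = 0 := ⟨⟨χ₀, hχ₀⟩, hχ₀0⟩
  set f : B → ℕ := fun ψ => blockHeight 2 B ((ψ : IrrCharacter G) : G → ℂ) with hf
  have hcard : Nat.card B = ∑ _ψ : B, 1 := by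
    rw [Finset.sum_const, Finset.card_univ, Nat.card_eq_fintype_card, smul_eq_mul, mul_one]
  have hcard0 : Nat.card {χ : IrrCharacter G // χ ∈ B ∧ blockHeight 2 B (χ : G → ℂ) = 0} =
      ∑ ψ : B, if f ψ = 0 then 1 else 0 := by
    rw [Finset.sum_ite, Finset.sum_const_zero, add_zero, Finset.sum_const, smul_eq_mul, mul_one,
      ← Fintype.card_subtype, ← Nat.card_eq_fintype_card]
    refine Nat.card_congr ⟨fun x => ⟨⟨x.1, x.2.1⟩, x.2.2⟩, fun x => ⟨x.1.1, x.1.2, x.2⟩,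
      fun x => rfl, fun x => rfl⟩
  -- the key inequality
  have key : ∑ ψ : B, (if f ψ = 0 then 1 else 4 : ℤ) ≤ 2 ^ blockDefect 2 B := by
    by_cases h1 : ∃ χ : B, f χ = 0 ∧ a χ χ 0 = 1
    · obtain ⟨χ, hχ, hχ1⟩ := h1
      have h2 := hP.row_bound hM hζ hχ
      rw [hχ1, mul_one] at h2
      refine le_trans (Finset.sum_le_sum fun ψ _ => ?_) h2
      split_ifs with hψ
      · exact one_le_pow₀ (by norm_num)
      · calc (4 : ℤ) = 4 ^ 1 := by norm_num
          _ ≤ 4 ^ f ψ := pow_le_pow_right₀ (by norm_num) (by omega)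
    · push Not at h1
      have h2 := hP.sum_t hζ
      rw [hl, Nat.cast_one, mul_one] at h2
      rw [← h2]
      refine Finset.sum_le_sum fun ψ _ => ?_
      have hpos := hP.pos hM hζ h0 ψ
      split_ifs with hψ
      · omega
      · have h3 := Int.le_of_dvd hpos (hP.dvd hM hζ hψ)
        refine le_trans ?_ h3
        calc (4 : ℤ) = 2 ^ 2 := by norm_num
          _ ≤ 2 ^ (f ψ + 1) := pow_le_pow_right₀ (by norm_num) (by omega)
  rw [hcard, hcard0]
  have h2 : (4 : ℤ) * ((∑ _ψ : B, 1 : ℕ) : ℤ) =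
      ∑ ψ : B, (if f ψ = 0 then 1 else 4 : ℤ) +
        3 * ((∑ ψ : B, if f ψ = 0 then 1 else 0 : ℕ) : ℤ) := by
    push_cast
    rw [Finset.mul_sum, Finset.mul_sum, ← Finset.sum_add_distrib]
    refine Finset.sum_congr rfl fun ψ _ => ?_
    split_ifs <;> norm_num
  have h3 : ((4 * (∑ _ψ : B, 1) : ℕ) : ℤ) ≤ ((2 ^ blockDefect 2 B +
      3 * ∑ ψ : B, (if f ψ = 0 then 1 else 0) : ℕ) : ℤ) := by
    rw [Nat.cast_mul, Nat.cast_ofNat, h2]
    push_cast
    push_cast at key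
    linarith
  exact_mod_cast h3

end Cfsg.Agent.H639.FTN2
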